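import Cfsg.Agent.KC.R9.C1x1

set_option maxRecDepth 100000
set_option Elab.async false

namespace Cfsg.Agent.KC.R9

theorem c0x0x0 : run3 8 acc9 7 0 1 0 1 0 = true := by decide +kernel
theorem c2x2x0 : run3 8 acc9 7 2 3 2 1 0 = true := by decide +kernel
theorem c2x1x0 : run3 8 acc9 7 2 3 1 1 0 = true := by decide +kernel

end Cfsg.Agent.KC.R9
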